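import Cfsg.Agent.E7P.Ns.Dfs
import Cfsg.Agent.R2.T1.Inf.Tab
import Cfsg.Agent.H944.E7Two

/-!
# S5932, NONSPLIT: the points of the alcove (helper88)

The multiplicities of the eigenvalues on the adjoint module are the coefficients of the generating function
`∑ q ^ r(y) + q ^ (N - r(y))` (sum over the positive roots), which is evaluated at `q = 512` coordinate by coordinate.
`cls_ok` : the test `go` holds for all classes.
-/

set_option autoImplicit false
set_option maxRecDepth 100000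

namespace Cfsg.Agent.E7P.Ns

open Cfsg.Agent.R2.T1 (RL dt cL cnt cnt_eq RL_len)
open Cfsg.Agent.H944.Tab (dotN)
open Cfsg.Agent.H944.E7Two (th7)

/-- the scalar product with the digits in base `8` -/
noncomputable def d8 (ys : List ℕ) : ℕ → ℕ := List.rec (fun _ => 0) (fun y _ r c => y * (c % 8) + r (c / 8)) ys

/-- the value of a polynomial -/
noncomputable def val (l : IL) (ys : List ℕ) : ℕ := IL.rec 0 (fun c a _ r => a * 512 ^ d8 ys c + r) l

theorem val_cons (c a : ℕ) (l : IL) (ys : List ℕ) : val (.cons c a l) ys = a * 512 ^ d8 ys c + val l ys := rfl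

/-- loops -/
noncomputable def loop (n : ℕ) (f : ℕ → Bool) : Bool := Nat.rec true (fun x r => Bool.rec false r (f x)) n

theorem loop_ok {f : ℕ → Bool} (n : ℕ) : loop n f = true → ∀ x < n, f x = true := by
  induction n with
  | zero => exact fun _ x hx => absurd hx (Nat.not_lt_zero x)
  | succ n ih =>
    intro h x hx
    have h1 : (Bool.rec false (loop n f) (f n) : Bool) = true := h
    cases h2 : f n
    · rw [h2] at h1
      exact Bool.noConfusion h1
    · rw [h2] at h1
      rcases Nat.lt_succ_iff_lt_or_eq.1 hx with h3 | rfl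
      · exact ih h1 x h3
      · exact h2

/-- substitution of the first variable -/
noncomputable def step (x : ℕ) (l : IL) : (IL → Bool) → Bool :=
  IL.rec (fun k => k IL.nil) (fun c y _ ih k => ih fun r => frc (Nat.div c (nat_lit 8)) fun s =>
    IL.rec (frc (Nat.shiftLeft y (Nat.mul x (Nat.mod c (nat_lit 8)))) fun a => k (IL.cons s a IL.nil))
      (fun s' b l' _ => Bool.rec
        (frc (Nat.shiftLeft y (Nat.mul x (Nat.mod c (nat_lit 8)))) fun a => k (IL.cons s a (IL.cons s' b l')))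
        (frc (Nat.add b (Nat.shiftLeft y (Nat.mul x (Nat.mod c (nat_lit 8))))) fun a => k (IL.cons s a l'))
        (Nat.beq s s')) r) l

theorem shift_eq (a x : ℕ) : Nat.shiftLeft a (Nat.mul 9 x) = a * 512 ^ x := by
  show a <<< (9 * x) = _
  rw [Nat.shiftLeft_eq, pow_mul]
  rfl

theorem step_ok (x : ℕ) (l : IL) : ∀ k, step (Nat.mul 9 x) l k = true →
    ∃ l', k l' = true ∧ ∀ ys, val l' ys = val l (x :: ys) := by
  induction l with
  | nil => exact fun k h => ⟨.nil, h, fun _ => rfl⟩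
  | cons c y t ih =>
    intro k h
    obtain ⟨r, h1, h2⟩ := ih _ h
    have e : Nat.shiftLeft y (Nat.mul (Nat.mul 9 x) (Nat.mod c 8)) = y * 512 ^ (x * (c % 8)) := by
      rw [← shift_eq]
      exact congrArg _ (mul_assoc 9 x (c % 8))
    have e2 : ∀ ys, val (.cons c y t) (x :: ys) = y * 512 ^ (x * (c % 8)) * 512 ^ d8 ys (c / 8) + val r ys := by
      intro ys
      rw [val_cons, h2, mul_assoc, ← pow_add]
      rfl
    rw [frc_eq] at h1
    cases r with
    | nil =>
      have h3 : (frc (Nat.shiftLeft y (Nat.mul (Nat.mul 9 x) (Nat.mod c 8))) fun a =>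
        k (IL.cons (c / 8) a IL.nil)) = true := h1
      rw [frc_eq, e] at h3
      exact ⟨_, h3, fun ys => by rw [e2, val_cons]⟩
    | cons s' b l' =>
      have h3 : (Bool.rec (frc (Nat.shiftLeft y (Nat.mul (Nat.mul 9 x) (Nat.mod c 8))) fun a =>
        k (IL.cons (c / 8) a (IL.cons s' b l')))
        (frc (Nat.add b (Nat.shiftLeft y (Nat.mul (Nat.mul 9 x) (Nat.mod c 8)))) fun a => k (IL.cons (c / 8) a l'))
        (Nat.beq (c / 8) s') : Bool) = true := h1
      rw [frc_eq, frc_eq, e] at h3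
      cases h4 : Nat.beq (c / 8) s'
      · rw [h4] at h3
        exact ⟨_, h3, fun ys => by rw [e2, val_cons]⟩
      · rw [h4] at h3
        refine ⟨_, h3, fun ys => ?_⟩
        rw [e2, val_cons, val_cons, ← Nat.eq_of_beq_eq_true h4, Nat.add_eq]
        ring

/-- the enumeration -/
noncomputable def enum (leaf : IL → ℕ → Bool) (ts : List ℕ) : IL → ℕ → Bool :=
  List.rec leaf (fun t _ ih st R => loop (Nat.succ (Nat.div R t)) fun x => step (Nat.mul (nat_lit 9) x) st fun st' =>
    frc (Nat.sub R (Nat.mul t x)) fun R' => ih st' R') ts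

theorem enum_ok {leaf : IL → ℕ → Bool} (ts : List ℕ) : (∀ t ∈ ts, 0 < t) → ∀ st R, enum leaf ts st R = true →
    ∀ y : List ℕ, y.length = ts.length → dotN ts y ≤ R →
      ∃ st', leaf st' (R - dotN ts y) = true ∧ ∀ zs, val st' zs = val st (y ++ zs) := by
  induction ts with
  | nil =>
    intro _ st R h y hy _
    obtain rfl : y = [] := List.length_eq_zero_iff.1 hy
    exact ⟨st, h, fun _ => rfl⟩
  | cons t ts ih =>
    intro h0 st R h y hy hR
    cases y with
    | nil => exact absurd hy (Nat.succ_ne_zero _).symm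
    | cons x y =>
      have e : dotN (t :: ts) (x :: y) = t * x + dotN ts y := rfl
      rw [e] at hR ⊢
      have h1 : x < R / t + 1 := Nat.lt_succ_of_le ((Nat.le_div_iff_mul_le (h0 t List.mem_cons_self)).2 (by
        rw [mul_comm]; omega))
      have h' : loop (R / t + 1) (fun x => step (Nat.mul 9 x) st fun st' =>
        frc (Nat.sub R (Nat.mul t x)) fun R' => enum leaf ts st' R') = true := h
      obtain ⟨st', h2, h3⟩ := step_ok x st _ (loop_ok _ h' x h1)
      rw [frc_eq] at h2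
      obtain ⟨st'', h4, h5⟩ := ih (fun s hs => h0 s (List.mem_cons_of_mem _ hs)) st' (R - t * x) h2 y
        (Nat.succ_injective hy) (by omega)
      exact ⟨st'', by rw [← Nat.sub_sub]; exact h4, fun zs => by rw [h5, h3]; rfl⟩

/-- the last two variables -/
noncomputable def leaf (P : ℕ) (go : ℕ → Bool) (st : IL) (R : ℕ) : Bool :=
  IL.rec false (fun s0 a st _ => IL.rec false (fun s1 b st _ => IL.rec false (fun s2 c st _ =>
    IL.rec false (fun s3 d st _ => IL.rec (Bool.rec false
      (frc (Nat.add a (Nat.shiftLeft d (Nat.mul (nat_lit 9) R))) fun a' => loop (Nat.succ R) fun x =>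
        frc (Nat.mod (Nat.add a' (Nat.add (Nat.shiftLeft b (Nat.mul (nat_lit 9) x))
          (Nat.shiftLeft c (Nat.mul (nat_lit 9) (Nat.sub R x))))) P) fun G => go (Nat.add G (Nat.mod G (nat_lit 512))))
      (Nat.beq s0 (nat_lit 0) && (Nat.beq s1 (nat_lit 1) && (Nat.beq s2 (nat_lit 8) && Nat.beq s3 (nat_lit 9)))))
      (fun _ _ _ _ => false) st) st) st) st) st

theorem leaf_ok {P : ℕ} {go : ℕ → Bool} {st : IL} {R : ℕ} (h : leaf P go st R = true) {x : ℕ} (hx : x ≤ R) :
    go (val st [x, R - x] % P + val st [x, R - x] % P % 512) = true := by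
  rcases st with _ | ⟨s0, a, _ | ⟨s1, b, _ | ⟨s2, c, _ | ⟨s3, d, _ | _⟩⟩⟩⟩ <;> try exact Bool.noConfusion h
  have h1 : (Bool.rec false (frc (Nat.add a (Nat.shiftLeft d (Nat.mul 9 R))) fun a' => loop (Nat.succ R) fun x =>
        frc (Nat.mod (Nat.add a' (Nat.add (Nat.shiftLeft b (Nat.mul 9 x))
          (Nat.shiftLeft c (Nat.mul 9 (Nat.sub R x))))) P) fun G => go (Nat.add G (Nat.mod G 512)))
      (Nat.beq s0 0 && (Nat.beq s1 1 && (Nat.beq s2 8 && Nat.beq s3 9))) : Bool) = true := h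
  cases h2 : (Nat.beq s0 0 && (Nat.beq s1 1 && (Nat.beq s2 8 && Nat.beq s3 9)))
  · rw [h2] at h1
    exact Bool.noConfusion h1
  rw [h2, frc_eq] at h1
  simp only [Bool.and_eq_true, Nat.beq_eq] at h2
  obtain ⟨rfl, rfl, rfl, rfl⟩ := h2
  have h3 := loop_ok _ h1 x (Nat.lt_succ_of_le hx)
  rw [frc_eq, shift_eq, shift_eq, shift_eq] at h3
  have e : val (.cons 0 a (.cons 1 b (.cons 8 c (.cons 9 d .nil)))) [x, R - x] =
      Nat.add (Nat.add a (d * 512 ^ R)) (Nat.add (b * 512 ^ x) (c * 512 ^ Nat.sub R x)) := by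
    show a * 512 ^ (x * 0 + ((R - x) * 0 + 0)) + (b * 512 ^ (x * 1 + ((R - x) * 0 + 0)) +
      (c * 512 ^ (x * 0 + ((R - x) * 1 + 0)) + (d * 512 ^ (x * 1 + ((R - x) * 1 + 0)) + 0))) =
      a + d * 512 ^ R + (b * 512 ^ x + c * 512 ^ (R - x))
    simp only [mul_zero, mul_one, add_zero, zero_add, pow_zero, Nat.add_sub_cancel' hx]
    ring
  rw [e]
  exact h3

/-- the exponents of the generating function -/
def codes : List ℕ :=
  [1, 8, 64, 65, 512, 520, 576, 577, 584, 585, 4096, 4608, 4616, 4672, 4673, 4680, 4681, 5192, 5193, 5257,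
   32768, 36864, 37376, 37384, 37440, 37441, 37448, 37449, 37960, 37961, 38025, 42056, 42057, 42121, 42633,
   42641, 262144, 294912, 299008, 299520, 299528, 299584, 299585, 299592, 299593, 300104, 300105, 300169,
   304200, 304201, 304265, 304777, 304785, 336968, 336969, 337033, 337545, 337553, 341641, 341649, 342161,
   342225, 342226, 2097152, 2097153, 2097217, 2097729, 2097737, 2101825, 2101833, 2102345, 2102409, 2102410,
   2134593, 2134601, 2135113, 2135177, 2135178, 2139209, 2139273, 2139274, 2139785, 2139786, 2139793,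
   2139794, 2139850, 2139858, 2140370, 2144466, 2177234, 2396737, 2396745, 2397257, 2397321, 2397322,
   2401353, 2401417, 2401418, 2401929, 2401930, 2401937, 2401938, 2401994, 2402002, 2402514, 2406610,
   2434121, 2434185, 2434186, 2434697, 2434698, 2434705, 2434706, 2434762, 2434770, 2435282, 2438793,
   2438794, 2438801, 2438802, 2438858, 2438866, 2439313, 2439314, 2439370, 2439377]

/-- the generating function -/
noncomputable def ofL (l : List ℕ) : IL := List.rec IL.nil (fun c _ r => IL.cons c 1 r) l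

theorem val_ofL (l ys : List ℕ) : val (ofL l) ys = (l.map fun c => 512 ^ d8 ys c).sum := by
  induction l with
  | nil => rfl
  | cons c l ih =>
    rw [List.map_cons, List.sum_cons, ← ih]
    exact congrArg (· + _) (one_mul _)

/-- the code of a vector -/
noncomputable def cd (l : List ℕ) : ℕ := List.rec 0 (fun a _ r => a + 8 * r) l

theorem d8_zero (ys : List ℕ) : d8 ys 0 = 0 := by
  induction ys with
  | nil => rfl
  | cons y ys ih => exact (zero_add _).trans ih

theorem d8_cd (l : List ℕ) : ∀ ys zs : List ℕ, (∀ a ∈ l, a < 8) → l.length = ys.length → ∀ c,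
    d8 (ys ++ zs) (cd l + 8 ^ l.length * c) = dt l ys + d8 zs c := by
  induction l with
  | nil =>
    intro ys zs _ h c
    obtain rfl : ys = [] := List.length_eq_zero_iff.1 h.symm
    show d8 zs (0 + 8 ^ 0 * c) = 0 + _
    rw [pow_zero, one_mul, zero_add, zero_add]
  | cons a l ih =>
    intro ys zs h hl c
    cases ys with
    | nil => exact absurd hl (Nat.succ_ne_zero _)
    | cons y ys =>
      have h1 := h a List.mem_cons_self
      show y * ((a + 8 * cd l + 8 ^ (l.length + 1) * c) % 8) + d8 (ys ++ zs) ((a + 8 * cd l + 8 ^ (l.length + 1) * c) / 8) =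
        a * y + dt l ys + d8 zs c
      rw [pow_succ', mul_assoc, show (a + 8 * cd l + 8 * (8 ^ l.length * c)) % 8 = a by omega,
        show (a + 8 * cd l + 8 * (8 ^ l.length * c)) / 8 = cd l + 8 ^ l.length * c by omega,
        ih ys zs (fun b hb => h b (List.mem_cons_of_mem _ hb)) (Nat.succ_injective hl), mul_comm, add_assoc]

theorem dt_sub (t : List ℕ) : ∀ w y : List ℕ, List.Forall₂ (· ≤ ·) w t →
    dt (List.zipWith (· - ·) t w) y + dt w y = dotN t y := by
  induction t with
  | nil =>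
    intro w y h
    cases h
    rfl
  | cons a t ih =>
    intro w y h
    cases h with
    | @cons b _ w _ h1 h2 =>
      cases y with
      | nil => rfl
      | cons x y =>
        show (a - b) * x + dt (List.zipWith (· - ·) t w) y + (b * x + dt w y) = a * x + dotN t y
        rw [← ih w y h2, add_add_add_comm, ← add_mul, Nat.sub_add_cancel h1]

theorem codes_perm : codes.Perm (RL.map (fun w => cd w.2 + 8 ^ 7 * 0) ++
    RL.map fun w => cd (List.zipWith (· - ·) th7 w.2) + 8 ^ 7 * 1) := by decide +kernel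

theorem RL_le : ∀ w ∈ RL, List.Forall₂ (· ≤ ·) w.2 th7 ∧ (∀ a ∈ w.2, a < 8) ∧
    (∀ a ∈ List.zipWith (· - ·) th7 w.2, a < 8) ∧ (List.zipWith (· - ·) th7 w.2).length = 7 := by decide +kernel

theorem dt_le {w : ℕ × List ℕ} (hw : w ∈ RL) (y : List ℕ) : dt w.2 y ≤ dotN th7 y := by
  rw [← dt_sub th7 w.2 y (RL_le w hw).1]
  exact Nat.le_add_left _ _

theorem val_codes {N : ℕ} {y : List ℕ} (hy : y.length = 7) (hN : dotN th7 y ≤ N) :
    val (ofL codes) (y ++ [N - dotN th7 y]) = (RL.map fun w => 512 ^ dt w.2 y + 512 ^ (N - dt w.2 y)).sum := by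
  rw [val_ofL, (codes_perm.map _).sum_eq, List.map_append, List.sum_append, List.map_map, List.map_map, List.sum_map_add]
  refine congrArg₂ (· + ·) (congrArg _ (List.map_congr_left fun w hw => ?_)) (congrArg _ (List.map_congr_left fun w hw => ?_))
  · have h1 := d8_cd w.2 y [N - dotN th7 y] (RL_le w hw).2.1 ((RL_len w hw).trans hy.symm) 0
    rw [RL_len w hw, d8_zero, add_zero] at h1
    exact congrArg _ h1
  · have h1 := d8_cd _ y [N - dotN th7 y] (RL_le w hw).2.2.1 ((RL_le w hw).2.2.2.trans hy.symm) 1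
    rw [(RL_le w hw).2.2.2] at h1
    have h2 := dt_sub th7 w.2 y (RL_le w hw).1
    have h3 : d8 [N - dotN th7 y] 1 = (N - dotN th7 y) * 1 + 0 := rfl
    exact congrArg _ (h1.trans (by omega))

/-- a part of the enumeration -/
noncomputable def ch (P : ℕ) (go : ℕ → Bool) (N j : ℕ) : Bool :=
  Nat.blt N (2 * (j / 16) + 2 * (j % 16)) || step (Nat.mul 9 (j / 16)) (ofL codes) fun st =>
    step (Nat.mul 9 (j % 16)) st fun st => enum (leaf P go) [3, 4, 3, 2] st (N - (2 * (j / 16) + 2 * (j % 16)))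

/-- a part of the enumeration -/
noncomputable def chR (P : ℕ) (go : ℕ → Bool) (N lo n : ℕ) : Bool := loop n fun i => ch P go N (lo + i)

theorem chR_ok {P : ℕ} {go : ℕ → Bool} {N lo n : ℕ} (h : chR P go N lo n = true) {j : ℕ} (h1 : lo ≤ j) (h2 : j < lo + n) :
    ch P go N j = true := by
  have h3 := loop_ok _ h (j - lo) (by omega)
  rwa [Nat.add_sub_cancel' h1] at h3

theorem ch_ok {P : ℕ} {go : ℕ → Bool} {N : ℕ} (hN : N ≤ 31) (h : ∀ j < 256, ch P go N j = true) {y : List ℕ}
    (hy : y.length = 7) (hy' : dotN th7 y ≤ N) : ∃ G, G = (RL.map fun w => 512 ^ dt w.2 y + 512 ^ (N - dt w.2 y)).sum ∧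
      go (G % P + G % P % 512) = true := by
  refine ⟨_, rfl, ?_⟩
  rw [← val_codes hy hy']
  rcases y with _ | ⟨y1, _ | ⟨y2, _ | ⟨y3, _ | ⟨y4, _ | ⟨y5, _ | ⟨y6, _ | ⟨y7, _ | _⟩⟩⟩⟩⟩⟩⟩ <;> try simp at hy
  have e : dotN th7 [y1, y2, y3, y4, y5, y6, y7] =
    2 * y1 + (2 * y2 + (3 * y3 + (4 * y4 + (3 * y5 + (2 * y6 + (1 * y7 + 0)))))) := rfl
  have e' : dotN [3, 4, 3, 2] [y3, y4, y5, y6] = 3 * y3 + (4 * y4 + (3 * y5 + (2 * y6 + 0))) := rfl
  have h1 := h (16 * y1 + y2) (by omega)
  rw [ch, show (16 * y1 + y2) / 16 = y1 by omega, show (16 * y1 + y2) % 16 = y2 by omega, Bool.or_eq_true,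
    Nat.blt_eq] at h1
  obtain ⟨s1, h2, h3⟩ := step_ok _ _ _ (h1.resolve_left (by omega))
  obtain ⟨s2, h4, h5⟩ := step_ok _ _ _ h2
  obtain ⟨s3, h6, h7⟩ := enum_ok _ (by decide) _ _ h4 [y3, y4, y5, y6] rfl (by omega)
  have h8 := leaf_ok h6 (x := y7) (by omega)
  rw [h7, h5, h3, show N - (2 * y1 + 2 * y2) - dotN [3, 4, 3, 2] [y3, y4, y5, y6] - y7 =
    N - dotN th7 [y1, y2, y3, y4, y5, y6, y7] by omega] at h8
  exact h8

/-- the place of the eigenvalue `z ^ s` -/
def pl (N s : ℕ) : ℕ := 512 ^ s % 512 ^ (N / 2 + 1)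

/-- the classes -/
def Cls (N X : ℕ) : Prop := ∃ y : List ℕ, y.length = 7 ∧ dotN th7 y ≤ N ∧ X = ∑ s ∈ Finset.range N, cL N y s * pl N s

/-- the test of the places -/
def okE (N : ℕ) : Bool := (List.range (N + 1)).all fun v =>
  Nat.beq (((List.range N).map fun s => ((if v % N == s then 1 else 0) + (if (v + s) % N == 0 then 1 else 0)) * pl N s).sum)
    ((512 ^ v + 512 ^ (N - v)) % 512 ^ (N / 2 + 1) + (512 ^ v + 512 ^ (N - v)) % 512) &&
  (Nat.ble ((512 ^ v + 512 ^ (N - v)) % 512 ^ (N / 2 + 1) * 64) (512 ^ (N / 2 + 1)) &&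
    Nat.ble ((512 ^ v + 512 ^ (N - v)) % 512 * 64) 512)

theorem sum_mod {α : Type} (g : α → ℕ) {P : ℕ} (hP : 0 < P) (l : List α) (hl : l.length < 64)
    (h : ∀ w ∈ l, g w % P * 64 ≤ P) : (l.map g).sum % P = (l.map fun w => g w % P).sum := by
  have h1 : ∀ l : List α, (∀ w ∈ l, g w % P * 64 ≤ P) → (l.map fun w => g w % P).sum * 64 ≤ l.length * P ∧
      (l.map g).sum % P = (l.map fun w => g w % P).sum % P := by
    intro l
    induction l with
    | nil => exact fun _ => ⟨Nat.zero_le _, rfl⟩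
    | cons a l ih =>
      intro h
      obtain ⟨h2, h3⟩ := ih fun w hw => h w (List.mem_cons_of_mem _ hw)
      have h4 := h a List.mem_cons_self
      rw [List.map_cons, List.sum_cons, List.map_cons, List.sum_cons, List.length_cons, add_mul, add_mul, one_mul]
      exact ⟨by omega, by rw [Nat.add_mod, h3, Nat.add_mod_mod]⟩
  obtain ⟨h2, h3⟩ := h1 l h
  have h4 : l.length * P ≤ 63 * P := Nat.mul_le_mul_right _ (by omega)
  rw [h3, Nat.mod_eq_of_lt (by omega)]

theorem sum_cnt {α : Type} (N : ℕ) (p q : α → ℕ → Bool) (e : ℕ → ℕ) (l : List α) :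
    ∑ s ∈ Finset.range N, (cnt (fun w => p w s) l + cnt (fun w => q w s) l) * e s =
      (l.map fun w => ((List.range N).map fun s => ((if p w s then 1 else 0) + (if q w s then 1 else 0)) * e s).sum).sum := by
  induction l with
  | nil => exact Finset.sum_eq_zero fun s _ => zero_mul _
  | cons a l ih =>
    rw [List.map_cons, List.sum_cons, ← ih, R2.T1.list_sum_range, ← Finset.sum_add_distrib]
    refine Finset.sum_congr rfl fun s _ => ?_
    rw [← add_mul, add_add_add_comm]
    rfl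

/-- **the test holds for all classes** -/
theorem cls_ok {go : ℕ → Bool} {N : ℕ} (hN0 : 0 < N) (hN : N ≤ 31) (hE : okE N = true)
    (h : ∀ j < 256, ch (512 ^ (N / 2 + 1)) go N j = true) {X : ℕ} (hX : Cls N X) : ∃ Y, X = 7 + Y ∧ go Y = true := by
  obtain ⟨y, hy, hy', rfl⟩ := hX
  obtain ⟨G, hG, h1⟩ := ch_ok hN h hy hy'
  refine ⟨_, ?_, h1⟩
  simp only [okE, List.all_eq_true, List.mem_range, Bool.and_eq_true, Nat.beq_eq, Nat.ble_eq] at hE
  have h2 : ∀ w ∈ RL, dt w.2 y < N + 1 := fun w hw => Nat.lt_succ_of_le ((dt_le hw y).trans hy')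
  have hl : RL.length < 64 := by decide
  rw [Nat.mod_mod_of_dvd _ (dvd_pow_self 512 (Nat.succ_ne_zero _)), hG,
    sum_mod _ (Nat.pow_pos (by norm_num)) RL hl fun w hw => (hE _ (h2 w hw)).2.1,
    sum_mod _ (by norm_num) RL hl fun w hw => (hE _ (h2 w hw)).2.2, ← List.sum_map_add,
    ← List.map_congr_left fun w hw => (hE _ (h2 w hw)).1, ← sum_cnt]
  simp only [cL, add_mul (ite _ _ _)]
  rw [Finset.sum_add_distrib, Finset.sum_eq_single_of_mem 0 (Finset.mem_range.2 hN0) fun s _ hs => by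
    rw [if_neg hs, zero_mul], if_pos rfl, pl, pow_zero, Nat.mod_eq_of_lt (Nat.one_lt_pow (Nat.succ_ne_zero _) (by norm_num))]

end Cfsg.Agent.E7P.Ns
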