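import Cfsg.Agent.E7P.Ns.D125

/-!
# S5932, NONSPLIT: the field with 125 elements, part 1 (helper88)
-/

set_option autoImplicit false
set_option maxRecDepth 100000
set_option Elab.async false

namespace Cfsg.Agent.E7P.Ns

theorem c125_0 : chR (nat_lit 22300745198530623141535718272648361505980416) go125 31 0 1 = true := by decide +kernel

theorem c125_1 : chR (nat_lit 22300745198530623141535718272648361505980416) go125 31 1 1 = true := by decide +kernel

theorem c125_2 : chR (nat_lit 22300745198530623141535718272648361505980416) go125 31 2 1 = true := by decide +kernel

theorem c125_3 : chR (nat_lit 22300745198530623141535718272648361505980416) go125 31 3 1 = true := by decide +kernel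

theorem c125_4 : chR (nat_lit 22300745198530623141535718272648361505980416) go125 31 4 2 = true := by decide +kernel

theorem c125_6 : chR (nat_lit 22300745198530623141535718272648361505980416) go125 31 6 10 = true := by decide +kernel

theorem c125_16 : chR (nat_lit 22300745198530623141535718272648361505980416) go125 31 16 1 = true := by decide +kernel

theorem c125_17 : chR (nat_lit 22300745198530623141535718272648361505980416) go125 31 17 1 = true := by decide +kernel

end Cfsg.Agent.E7P.Ns
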