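import Cfsg.Agent.E7P.Ns.D125

/-!
# S5932, NONSPLIT: the field with 125 elements, part 2 (helper88)
-/

set_option autoImplicit false
set_option maxRecDepth 100000
set_option Elab.async false

namespace Cfsg.Agent.E7P.Ns

theorem c125_18 : chR (nat_lit 22300745198530623141535718272648361505980416) go125 31 18 1 = true := by decide +kernel

theorem c125_19 : chR (nat_lit 22300745198530623141535718272648361505980416) go125 31 19 1 = true := by decide +kernel

theorem c125_20 : chR (nat_lit 22300745198530623141535718272648361505980416) go125 31 20 1 = true := by decide +kernel

theorem c125_21 : chR (nat_lit 22300745198530623141535718272648361505980416) go125 31 21 3 = true := by decide +kernel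

theorem c125_24 : chR (nat_lit 22300745198530623141535718272648361505980416) go125 31 24 8 = true := by decide +kernel

theorem c125_32 : chR (nat_lit 22300745198530623141535718272648361505980416) go125 31 32 1 = true := by decide +kernel

theorem c125_33 : chR (nat_lit 22300745198530623141535718272648361505980416) go125 31 33 1 = true := by decide +kernel

theorem c125_34 : chR (nat_lit 22300745198530623141535718272648361505980416) go125 31 34 1 = true := by decide +kernel

theorem c125_35 : chR (nat_lit 22300745198530623141535718272648361505980416) go125 31 35 1 = true := by decide +kernel

theorem c125_36 : chR (nat_lit 22300745198530623141535718272648361505980416) go125 31 36 2 = true := by decide +kernel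

theorem c125_38 : chR (nat_lit 22300745198530623141535718272648361505980416) go125 31 38 10 = true := by decide +kernel

theorem c125_48 : chR (nat_lit 22300745198530623141535718272648361505980416) go125 31 48 1 = true := by decide +kernel

end Cfsg.Agent.E7P.Ns
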