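import Cfsg.Agent.E7P.Ns.D125

/-!
# S5932, NONSPLIT: the field with 125 elements, part 3 (helper88)
-/

set_option autoImplicit false
set_option maxRecDepth 100000
set_option Elab.async false

namespace Cfsg.Agent.E7P.Ns

theorem c125_49 : chR (nat_lit 22300745198530623141535718272648361505980416) go125 31 49 1 = true := by decide +kernel

theorem c125_50 : chR (nat_lit 22300745198530623141535718272648361505980416) go125 31 50 1 = true := by decide +kernel

theorem c125_51 : chR (nat_lit 22300745198530623141535718272648361505980416) go125 31 51 2 = true := by decide +kernel

theorem c125_53 : chR (nat_lit 22300745198530623141535718272648361505980416) go125 31 53 11 = true := by decide +kernel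

theorem c125_64 : chR (nat_lit 22300745198530623141535718272648361505980416) go125 31 64 1 = true := by decide +kernel

theorem c125_65 : chR (nat_lit 22300745198530623141535718272648361505980416) go125 31 65 1 = true := by decide +kernel

theorem c125_66 : chR (nat_lit 22300745198530623141535718272648361505980416) go125 31 66 1 = true := by decide +kernel

theorem c125_67 : chR (nat_lit 22300745198530623141535718272648361505980416) go125 31 67 13 = true := by decide +kernel

theorem c125_80 : chR (nat_lit 22300745198530623141535718272648361505980416) go125 31 80 1 = true := by decide +kernel

theorem c125_81 : chR (nat_lit 22300745198530623141535718272648361505980416) go125 31 81 1 = true := by decide +kernel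

theorem c125_82 : chR (nat_lit 22300745198530623141535718272648361505980416) go125 31 82 14 = true := by decide +kernel

theorem c125_96 : chR (nat_lit 22300745198530623141535718272648361505980416) go125 31 96 16 = true := by decide +kernel

theorem c125_112 : chR (nat_lit 22300745198530623141535718272648361505980416) go125 31 112 33 = true := by decide +kernel

theorem c125_145 : chR (nat_lit 22300745198530623141535718272648361505980416) go125 31 145 111 = true := by decide +kernel

end Cfsg.Agent.E7P.Ns
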