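import Mathlib.Algebra.BigOperators.Group.Multiset.Basic
import Mathlib.Algebra.BigOperators.Group.Finset.Basic
import Mathlib.Algebra.Order.BigOperators.Group.Multiset
import Mathlib.Tactic.Ring
import Mathlib.Tactic.Linarith

/-!
# S5932, NONSPLIT: the search for composition factors (helper88)

Vectors of multiplicities are packed into natural numbers (base `512`, one guard bit in every digit).
`dfs_ok` : if the search succeeds, then every decomposition of the vector passes the final test.
-/

set_option autoImplicit false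

namespace Cfsg.Agent.E7P.Ns

/-- lists of pairs -/
inductive IL
  | nil
  | cons (v u : ℕ) (t : IL)

/-- lists of groups -/
inductive GrL
  | nil
  | cons (K : ℕ) (l : IL) (t : GrL)

/-- the list -/
noncomputable def IL.tl (l : IL) : List (ℕ × ℕ) := IL.rec [] (fun v u _ r => (v, u) :: r) l

/-- the list -/
noncomputable def GrL.tl (l : GrL) : List (ℕ × ℕ) := GrL.rec [] (fun _ l _ r => l.tl ++ r) l

/-- evaluation -/
noncomputable def frc (x : ℕ) (k : ℕ → Bool) : Bool := Nat.rec (k 0) (fun n _ => k (Nat.succ n)) x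

theorem frc_eq (x : ℕ) (k : ℕ → Bool) : frc x k = k x := by cases x <;> rfl

/-- the sum of the digits -/
noncomputable def dm (m : ℕ) : ℕ → ℕ := Nat.rec (fun _ => 0) (fun _ r v => v % 512 + r (v / 512)) m

/-- the guard bits -/
noncomputable def msk (m : ℕ) : ℕ := Nat.rec 0 (fun _ r => 256 + 512 * r) m

/-- `t` has `m` digits with sum at most `d` -/
def Good (m : ℕ) : ℕ → ℕ → Prop :=
  Nat.rec (fun t _ => t = 0) (fun _ r t d => ∃ a t' d', t = a + 512 * t' ∧ a + d' ≤ d ∧ r t' d') m

theorem good_zero (m : ℕ) : ∀ d, Good m 0 d := by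
  induction m with
  | zero => exact fun _ => rfl
  | succ m ih => exact fun d => ⟨0, 0, 0, rfl, Nat.zero_le _, ih 0⟩

theorem Good.add {m : ℕ} : ∀ {t d s e : ℕ}, Good m t d → Good m s e → Good m (t + s) (d + e) := by
  induction m with
  | zero =>
    intro t d s e h1 h2
    have h3 : t = 0 := h1
    have h4 : s = 0 := h2
    show t + s = 0
    omega
  | succ m ih =>
    rintro t d s e ⟨a, t', d', h1, h2, h3⟩ ⟨b, s', e', h4, h5, h6⟩
    exact ⟨a + b, t' + s', d' + e', by omega, by omega, ih h3 h6⟩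

theorem good_dm (m : ℕ) : ∀ v, v < 512 ^ m → Good m v (dm m v) := by
  induction m with
  | zero =>
    intro v h
    show v = 0
    omega
  | succ m ih =>
    intro v h
    refine ⟨v % 512, v / 512, dm m (v / 512), by omega, le_rfl, ih _ ?_⟩
    rw [pow_succ] at h
    omega

theorem land_low : ∀ a < 256, (256 + a) &&& 256 = 256 := by decide +kernel

theorem Good.land {m : ℕ} : ∀ {t d : ℕ}, Good m t d → d < 256 → Nat.land (msk m + t) (msk m) = msk m := by
  induction m with
  | zero => exact fun _ _ => Nat.and_zero _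
  | succ m ih =>
    rintro t d ⟨a, t', d', h1, h2, h3⟩ hd
    have h4 : (msk m + t') &&& msk m = msk m := ih h3 (by omega)
    have h5 : msk (m + 1) = 256 + 512 * msk m := rfl
    show (msk (m + 1) + t) &&& msk (m + 1) = msk (m + 1)
    have h6 := @Nat.and_mod_two_pow (msk (m + 1) + t) (msk (m + 1)) 9
    have h7 := @Nat.and_div_two_pow (msk (m + 1) + t) (msk (m + 1)) 9
    rw [show (msk (m + 1) + t) % 2 ^ 9 = 256 + a by omega, show msk (m + 1) % 2 ^ 9 = 256 by omega,
      land_low a (by omega)] at h6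
    rw [show (msk (m + 1) + t) / 2 ^ 9 = msk m + t' by omega, show msk (m + 1) / 2 ^ 9 = msk m by omega, h4] at h7
    omega

/-- the search in one group -/
noncomputable def grp (M : ℕ) (k : ℕ → ℕ → Bool) (K : ℕ) (fuel : ℕ) : IL → ℕ → ℕ → Bool :=
  Nat.rec (fun _ _ _ => false) (fun _ ih l T U => Bool.rec
    (IL.rec true (fun v u l' r => Bool.rec r (Bool.rec false r (frc (Nat.sub T v) fun T' => ih (IL.cons v u l') T' (Nat.add U u)))
      (Nat.beq (Nat.land (Nat.sub T v) M) M)) l)
    (k T U) (Nat.ble T K)) fuel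

/-- the search -/
noncomputable def dfs (M : ℕ) (fin : ℕ → ℕ → Bool) (gs : GrL) : ℕ → ℕ → Bool :=
  GrL.rec fin (fun K l _ ih => grp M ih K (nat_lit 50) l) gs

/-- the sums -/
def sV (S : Multiset (ℕ × ℕ)) : ℕ := (S.map Prod.fst).sum

/-- the sums -/
def sU (S : Multiset (ℕ × ℕ)) : ℕ := (S.map Prod.snd).sum

/-- the sums -/
noncomputable def sD (m : ℕ) (S : Multiset (ℕ × ℕ)) : ℕ := (S.map fun x => dm m x.1).sum

theorem sV_cons (x : ℕ × ℕ) (S : Multiset (ℕ × ℕ)) : sV (x ::ₘ S) = x.1 + sV S := by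
  rw [sV, Multiset.map_cons, Multiset.sum_cons, sV]

theorem sU_cons (x : ℕ × ℕ) (S : Multiset (ℕ × ℕ)) : sU (x ::ₘ S) = x.2 + sU S := by
  rw [sU, Multiset.map_cons, Multiset.sum_cons, sU]

theorem sD_cons (m : ℕ) (x : ℕ × ℕ) (S : Multiset (ℕ × ℕ)) : sD m (x ::ₘ S) = dm m x.1 + sD m S := by
  rw [sD, Multiset.map_cons, Multiset.sum_cons, sD]

theorem good_sV {m : ℕ} (S : Multiset (ℕ × ℕ)) : (∀ x ∈ S, x.1 < 512 ^ m) → Good m (sV S) (sD m S) := by
  induction S using Multiset.induction_on with
  | empty => exact fun _ => good_zero m _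
  | cons x S ih =>
    intro h
    rw [sV_cons, sD_cons]
    exact (good_dm m _ (h x (Multiset.mem_cons_self x S))).add (ih fun y hy => h y (Multiset.mem_cons_of_mem hy))

theorem sV_le {m E : ℕ} (S : Multiset (ℕ × ℕ)) : (∀ x ∈ S, x.1 * 256 ≤ dm m x.1 * E) → sV S * 256 ≤ sD m S * E := by
  induction S using Multiset.induction_on with
  | empty => exact fun _ => Nat.zero_le _
  | cons x S ih =>
    intro h
    rw [sV_cons, sD_cons, add_mul, add_mul]
    exact add_le_add (h x (Multiset.mem_cons_self x S)) (ih fun y hy => h y (Multiset.mem_cons_of_mem hy))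

theorem test_ok {m n0 : ℕ} {S : Multiset (ℕ × ℕ)} (hS : ∀ x ∈ S, x.1 < 512 ^ (m + 1)) (hd : n0 + sD (m + 1) S < 256) :
    Nat.beq (Nat.land (msk (m + 1) + n0 + sV S) (msk (m + 1))) (msk (m + 1)) = true := by
  have h1 : Good (m + 1) n0 n0 := ⟨n0, 0, 0, rfl, le_rfl, good_zero m 0⟩
  rw [Nat.beq_eq, add_assoc]
  exact (h1.add (good_sV S hS)).land hd

theorem grp_ok {m K E n0 : ℕ} {k : ℕ → ℕ → Bool} {rest : List (ℕ × ℕ)} {P : ℕ → Prop}
    (hk : ∀ (S : Multiset (ℕ × ℕ)) (U : ℕ), (∀ x ∈ S, x ∈ rest) → n0 + sD (m + 1) S < 256 →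
      k (msk (m + 1) + n0 + sV S) U = true → P (U + sU S))
    (hK : K + 1 = msk (m + 1) + E) (hE : 256 ≤ E) (hr : ∀ x ∈ rest, x.1 * 256 ≤ dm (m + 1) x.1 * E ∧ x.1 < 512 ^ (m + 1))
    (fuel : ℕ) : ∀ l : IL, (∀ x ∈ l.tl, E ≤ x.1 ∧ x.1 < 512 ^ (m + 1)) → ∀ (S : Multiset (ℕ × ℕ)) (U : ℕ),
      (∀ x ∈ S, x ∈ l.tl ∨ x ∈ rest) → n0 + sD (m + 1) S < 256 →
      grp (msk (m + 1)) k K fuel l (msk (m + 1) + n0 + sV S) U = true → P (U + sU S) := by
  induction fuel with
  | zero => exact fun _ _ _ _ _ _ h => absurd h Bool.false_ne_true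
  | succ fuel ih =>
    intro l hl S U hS hd h
    obtain ⟨T, hT⟩ : ∃ T, T = msk (m + 1) + n0 + sV S := ⟨_, rfl⟩
    have h1 : (Bool.rec (IL.rec true (fun v u l' r => Bool.rec r (Bool.rec false r (frc (Nat.sub T v) fun T' =>
        grp (msk (m + 1)) k K fuel (IL.cons v u l') T' (Nat.add U u)))
        (Nat.beq (Nat.land (Nat.sub T v) (msk (m + 1))) (msk (m + 1)))) l) (k T U) (Nat.ble T K) : Bool) = true := by
      rw [hT]
      exact h
    cases hb : Nat.ble T K
    · rw [hb] at h1
      have hb' : K < T := by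
        by_contra h2
        rw [Nat.ble_eq_true_of_le (Nat.le_of_not_lt h2)] at hb
        exact Bool.noConfusion hb
      clear h hb
      induction l with
      | nil =>
        exfalso
        have h2 := sV_le (m := m + 1) (E := E) S fun x hx => (hr x ((hS x hx).resolve_left List.not_mem_nil)).1
        have h3 : n0 * 256 ≤ n0 * E := Nat.mul_le_mul_left _ hE
        have h4 : (n0 + sD (m + 1) S) * E ≤ 255 * E := Nat.mul_le_mul_right _ (by omega)
        rw [add_mul] at h4
        omega
      | cons v u l' ih' =>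
        have h2 : (Bool.rec (IL.rec true (fun v u l' r => Bool.rec r (Bool.rec false r (frc (Nat.sub T v) fun T' =>
          grp (msk (m + 1)) k K fuel (IL.cons v u l') T' (Nat.add U u)))
          (Nat.beq (Nat.land (Nat.sub T v) (msk (m + 1))) (msk (m + 1)))) l') (Bool.rec false
          (IL.rec true (fun v u l' r => Bool.rec r (Bool.rec false r (frc (Nat.sub T v) fun T' =>
          grp (msk (m + 1)) k K fuel (IL.cons v u l') T' (Nat.add U u)))
          (Nat.beq (Nat.land (Nat.sub T v) (msk (m + 1))) (msk (m + 1)))) l') (frc (Nat.sub T v) fun T' =>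
          grp (msk (m + 1)) k K fuel (IL.cons v u l') T' (Nat.add U u)))
          (Nat.beq (Nat.land (Nat.sub T v) (msk (m + 1))) (msk (m + 1))) : Bool) = true := h1
        have e : (IL.cons v u l').tl = (v, u) :: l'.tl := rfl
        by_cases hx : (v, u) ∈ S
        · obtain ⟨S', rfl⟩ := Multiset.exists_cons_of_mem hx
          have h3 : Nat.sub T v = msk (m + 1) + n0 + sV S' := by
            rw [hT, sV_cons]
            show _ - v = _
            omega
          have h4 : n0 + sD (m + 1) S' < 256 := by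
            rw [sD_cons] at hd
            omega
          have h5 : ∀ x ∈ S', x ∈ (IL.cons v u l').tl ∨ x ∈ rest := fun x hx => hS x (Multiset.mem_cons_of_mem hx)
          rw [h3, test_ok (fun x hx => (h5 x hx).elim (fun h => (hl x h).2) fun h => (hr x h).2) h4, frc_eq] at h2
          cases h6 : grp (msk (m + 1)) k K fuel (IL.cons v u l') (msk (m + 1) + n0 + sV S') (Nat.add U u)
          · rw [h6] at h2
            exact Bool.noConfusion h2
          · have h7 := ih _ hl S' _ h5 h4 h6
            rw [sU_cons, ← add_assoc]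
            exact h7
        · refine ih' (fun x hx => hl x (by rw [e]; exact List.mem_cons_of_mem _ hx)) (fun x hx' => ?_) ?_
          · refine (hS x hx').imp_left fun h => ?_
            rw [e] at h
            exact (List.mem_cons.1 h).resolve_left fun h => hx (h ▸ hx')
          · revert h2
            cases Nat.beq (Nat.land (Nat.sub T v) (msk (m + 1))) (msk (m + 1))
            · exact id
            · cases frc (Nat.sub T v) fun T' => grp (msk (m + 1)) k K fuel (IL.cons v u l') T' (Nat.add U u)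
              · exact fun h => Bool.noConfusion h
              · exact id
    · rw [hb, hT] at h1
      refine hk S U (fun x hx => (hS x hx).resolve_left fun h2 => ?_) hd h1
      obtain ⟨S', rfl⟩ := Multiset.exists_cons_of_mem hx
      have h3 := (hl x h2).1
      have h4 := Nat.le_of_ble_eq_true hb
      rw [sV_cons] at hT
      omega

/-- the test of the groups -/
noncomputable def okG (m : ℕ) (gs : GrL) : Bool :=
  GrL.rec true (fun K l t r => r && (Nat.ble (msk m + 255) K &&
    (l.tl.all (fun x => Nat.ble (K + 1 - msk m) x.1 && Nat.blt x.1 (512 ^ m)) &&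
      t.tl.all fun x => Nat.ble (x.1 * 256) (dm m x.1 * (K + 1 - msk m)) && Nat.blt x.1 (512 ^ m)))) gs

/-- **the search** -/
theorem dfs_ok {m n0 : ℕ} {fin : ℕ → ℕ → Bool} (gs : GrL) : okG (m + 1) gs = true → ∀ (S : Multiset (ℕ × ℕ)) (U : ℕ),
    (∀ x ∈ S, x ∈ gs.tl) → n0 + sD (m + 1) S < 256 → dfs (msk (m + 1)) fin gs (msk (m + 1) + n0 + sV S) U = true →
    fin (msk (m + 1) + n0) (U + sU S) = true := by
  induction gs with
  | nil =>
    intro _ S U hS _ h
    obtain rfl : S = 0 := Multiset.eq_zero_of_forall_notMem fun x hx => List.not_mem_nil (hS x hx)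
    exact h
  | cons K l t ih =>
    intro hok S U hS hd h
    have h1 : (okG (m + 1) t && (Nat.ble (msk (m + 1) + 255) K &&
      (l.tl.all (fun x => Nat.ble (K + 1 - msk (m + 1)) x.1 && Nat.blt x.1 (512 ^ (m + 1))) &&
      t.tl.all fun x => Nat.ble (x.1 * 256) (dm (m + 1) x.1 * (K + 1 - msk (m + 1))) &&
        Nat.blt x.1 (512 ^ (m + 1))))) = true := hok
    simp only [Bool.and_eq_true, List.all_eq_true, Nat.ble_eq, Nat.blt_eq] at h1
    obtain ⟨h2, h3, h4, h5⟩ := h1
    exact grp_ok (K := K) (E := K + 1 - msk (m + 1)) (P := fun U => fin (msk (m + 1) + n0) U = true) (ih h2) (by omega)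
      (by omega) h5 50 l h4 S U (fun x hx => List.mem_append.1 (hS x hx)) hd h

end Cfsg.Agent.E7P.Ns
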