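import Cfsg.Agent.E7P.Ns.C125A
import Cfsg.Agent.E7P.Ns.C125B
import Cfsg.Agent.E7P.Ns.C125C

/-!
# S5932, NONSPLIT: the field with 125 elements (helper88)
-/

set_option autoImplicit false
set_option maxRecDepth 100000
set_option Elab.async false

namespace Cfsg.Agent.E7P.Ns

open Cfsg.Agent.R2.H28.SL2 (hb)
open Finset

theorem all125 : ∀ j < 256, ch (512 ^ (31 / 2 + 1)) go125 31 j = true := by
  intro j hj
  rw [show 512 ^ (31 / 2 + 1) = 22300745198530623141535718272648361505980416 by norm_num]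
  by_cases h0 : j < 1
  · exact chR_ok c125_0 (by omega) h0
  by_cases h1 : j < 2
  · exact chR_ok c125_1 (by omega) h1
  by_cases h2 : j < 3
  · exact chR_ok c125_2 (by omega) h2
  by_cases h3 : j < 4
  · exact chR_ok c125_3 (by omega) h3
  by_cases h4 : j < 6
  · exact chR_ok c125_4 (by omega) h4
  by_cases h6 : j < 16
  · exact chR_ok c125_6 (by omega) h6
  by_cases h16 : j < 17
  · exact chR_ok c125_16 (by omega) h16
  by_cases h17 : j < 18
  · exact chR_ok c125_17 (by omega) h17
  by_cases h18 : j < 19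
  · exact chR_ok c125_18 (by omega) h18
  by_cases h19 : j < 20
  · exact chR_ok c125_19 (by omega) h19
  by_cases h20 : j < 21
  · exact chR_ok c125_20 (by omega) h20
  by_cases h21 : j < 24
  · exact chR_ok c125_21 (by omega) h21
  by_cases h24 : j < 32
  · exact chR_ok c125_24 (by omega) h24
  by_cases h32 : j < 33
  · exact chR_ok c125_32 (by omega) h32
  by_cases h33 : j < 34
  · exact chR_ok c125_33 (by omega) h33
  by_cases h34 : j < 35
  · exact chR_ok c125_34 (by omega) h34
  by_cases h35 : j < 36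
  · exact chR_ok c125_35 (by omega) h35
  by_cases h36 : j < 38
  · exact chR_ok c125_36 (by omega) h36
  by_cases h38 : j < 48
  · exact chR_ok c125_38 (by omega) h38
  by_cases h48 : j < 49
  · exact chR_ok c125_48 (by omega) h48
  by_cases h49 : j < 50
  · exact chR_ok c125_49 (by omega) h49
  by_cases h50 : j < 51
  · exact chR_ok c125_50 (by omega) h50
  by_cases h51 : j < 53
  · exact chR_ok c125_51 (by omega) h51
  by_cases h53 : j < 64
  · exact chR_ok c125_53 (by omega) h53
  by_cases h64 : j < 65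
  · exact chR_ok c125_64 (by omega) h64
  by_cases h65 : j < 66
  · exact chR_ok c125_65 (by omega) h65
  by_cases h66 : j < 67
  · exact chR_ok c125_66 (by omega) h66
  by_cases h67 : j < 80
  · exact chR_ok c125_67 (by omega) h67
  by_cases h80 : j < 81
  · exact chR_ok c125_80 (by omega) h80
  by_cases h81 : j < 82
  · exact chR_ok c125_81 (by omega) h81
  by_cases h82 : j < 96
  · exact chR_ok c125_82 (by omega) h82
  by_cases h96 : j < 112
  · exact chR_ok c125_96 (by omega) h96
  by_cases h112 : j < 145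
  · exact chR_ok c125_112 (by omega) h112
  exact chR_ok c125_145 (by omega) hj

theorem num125 {n : ℕ → ℕ} (hdim : ∑ b ∈ range (5 ^ 3), n b * dimN 5 b = 133) (hev : ∀ b, n b ≠ 0 → Even b)
    (hf : ∀ b, fo 5 3 b ≤ n b) (hp : n 0 + 3 ≤ ∑ b ∈ range (5 ^ 3), n b * hb 5 3 b)
    (h : Cls 31 (∑ b ∈ range (5 ^ 3), n b * vec 31 5 b))
    (h7 : Cls 7 (∑ b ∈ range (5 ^ 3), n b * vec 7 5 b)) (h3 : Cls 3 (∑ b ∈ range (5 ^ 3), n b * vec 3 5 b)) : False := by
  obtain ⟨Y, h1, h2⟩ := cls_ok (by norm_num) (by norm_num) okE125 all125 h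
  obtain ⟨Y7, e7, m7⟩ := cls_ok (by norm_num) (by norm_num) okE7 (fun j hj => chR_ok c7 (Nat.zero_le j) hj) h7
  obtain ⟨Y3, e3, m3⟩ := cls_ok (by norm_num) (by norm_num) okE3 (fun j hj => chR_ok c3 (Nat.zero_le j) hj) h3
  refine num_ok (by norm_num) okL125 hdim hev hf hp ?_ h1 h2
  refine List.mem_flatMap.2 ⟨Y7, mem_ok.1 m7, List.mem_map.2 ⟨Y3, mem_ok.1 m3, ?_⟩⟩
  rw [← e7, ← e3, mul_sum, ← sum_add_distrib]
  exact sum_congr rfl fun b _ => by rw [sm125]; ring

end Cfsg.Agent.E7P.Ns
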