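import Cfsg.Agent.E7P.Ns.Rep
import Cfsg.Agent.E7P.Ns.Two
import Cfsg.Agent.E7P.Ns.Three
import Cfsg.Agent.E7P.Iface

/-!
# S5932, NONSPLIT (helper88)

`Sit.ns_main`, `Sit.ns_main'` : for `|K| = 169, 121, 49, 125` the adjoint module does not have the composition factors
`L(2 p ^ j)` and twice `J₁(j)` for all `j` together with the pressure inequality.
-/

set_option autoImplicit false
set_option maxRecDepth 100000

namespace Cfsg.Agent.E7P

open Cfsg Cfsg.Lie Module Finset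
open Cfsg.Agent.R2.T1
open Cfsg.Agent.R2.H28.SL2 (IsMult hb)
open Cfsg.Agent.BpExc.TorAll (HAlg)
open Cfsg.Agent.H943.SL2Rel (h)
open Cfsg.Agent.R2.H9.E6 (pq)

universe u v

namespace Ns

/-- **NONSPLIT** -/
theorem main {p a : ℕ} [Fact p.Prime] {K : Type v} {k : Type u} [Field K] [Fintype K] [CharP K p] [Field k] [DecidableEq k]
    [CharP k p] [IsAlgClosed k] (ι : K →+* k) (hk : HAlg p k) (ψ : Matrix.SpecialLinearGroup (Fin 2) K →* Gh k)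
    (hF : Fintype.card K = p ^ a) (hc : (p = 13 ∧ a = 2) ∨ (p = 11 ∧ a = 2) ∨ (p = 7 ∧ a = 2) ∨ (p = 5 ∧ a = 3))
    {n : ℕ → ℕ} (hn : IsMult ι p a (MonoidHom.comp (L k) ψ) n) (hev : ∀ b, n b ≠ 0 → Even b)
    (h1 : ∀ j < a, 1 ≤ n (2 * p ^ j)) (h2 : ∀ j < a, 2 ≤ n (p ^ j + (p - 2) * p ^ ((j + a - 1) % a)))
    (h3 : n 0 + a ≤ ∑ c ∈ range (p ^ a), n c * R2.H28.SL2.hb p a c) : False := by
  have ha : a ≤ 3 := by omega
  have hdim : ∑ b ∈ range (p ^ a), n b * dimN p b = 133 := by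
    have h4 := hn.dim
    rw [Module.finrank_fintype_fun_eq_card, show Fintype.card chevE7.Idx = 133 from by decide +kernel] at h4
    rw [h4]
    exact sum_congr rfl fun b hb => by
      rw [card_Bf p ((mem_range.1 hb).trans_le (Nat.pow_le_pow_right (Fact.out : p.Prime).pos ha))]
  have hf : ∀ b, fo p a b ≤ n b := by
    intro b
    unfold fo
    split_ifs with h4 h4
    · obtain ⟨j, hj, rfl⟩ := h4
      exact h1 j hj
    · obtain ⟨j, hj, rfl⟩ := h4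
      exact h2 j hj
    · exact Nat.zero_le _
  have hcl := fun N => cls p ι hk ψ hF ha hn hev (N := N)
  rcases hc with ⟨rfl, rfl⟩ | ⟨rfl, rfl⟩ | ⟨rfl, rfl⟩ | ⟨rfl, rfl⟩
  · exact num169 hdim hev hf h3 (hcl 12 (by decide) (by decide) (by decide))
  · exact num121 hdim hev hf h3 (hcl 20 (by decide) (by decide) (by decide))
  · exact num49 hdim hev hf h3 (hcl 24 (by decide) (by decide) (by decide))
  · exact num125 hdim hev hf h3 (hcl 31 (by decide) (by decide) (by decide)) (hcl 7 (by decide) (by decide) (by decide))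
      (hcl 3 (by decide) (by decide) (by decide))

/-- the exceptional labels -/
theorem hb_eq {p a : ℕ} (hc : (p = 13 ∧ a = 2) ∨ (p = 11 ∧ a = 2) ∨ (p = 7 ∧ a = 2) ∨ (p = 5 ∧ a = 3)) :
    ∀ c < p ^ a, hb p a c = ∑ j ∈ range a, if c = p ^ j + (p - 2) * p ^ ((j + a - 1) % a) then 1 else 0 := by
  rcases hc with ⟨rfl, rfl⟩ | ⟨rfl, rfl⟩ | ⟨rfl, rfl⟩ | ⟨rfl, rfl⟩ <;> decide +kernel

theorem wl_lt {p a : ℕ} (hc : (p = 13 ∧ a = 2) ∨ (p = 11 ∧ a = 2) ∨ (p = 7 ∧ a = 2) ∨ (p = 5 ∧ a = 3)) :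
    ∀ j < a, p ^ j + (p - 2) * p ^ ((j + a - 1) % a) < p ^ a := by
  rcases hc with ⟨rfl, rfl⟩ | ⟨rfl, rfl⟩ | ⟨rfl, rfl⟩ | ⟨rfl, rfl⟩ <;> decide +kernel

/-- the number of exceptional factors -/
theorem sum_hb {p a : ℕ} (hc : (p = 13 ∧ a = 2) ∨ (p = 11 ∧ a = 2) ∨ (p = 7 ∧ a = 2) ∨ (p = 5 ∧ a = 3)) (n : ℕ → ℕ) :
    ∑ c ∈ range (p ^ a), n c * hb p a c = ∑ j ∈ range a, n (p ^ j + (p - 2) * p ^ ((j + a - 1) % a)) := by
  rw [sum_congr rfl fun c hc' => by rw [hb_eq hc c (mem_range.1 hc'), mul_sum], sum_comm]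
  refine sum_congr rfl fun j hj => ?_
  simp only [mul_ite, mul_one, mul_zero]
  rw [sum_ite_eq', if_pos (mem_range.2 (wl_lt hc j (mem_range.1 hj)))]

end Ns

namespace Sit

variable {p a b : ℕ} {F : Type u} {K : Type v} {k : Type u} [Field F] [Fintype F] [Field K] [Fintype K] [Field k]
  (S : Sit p a b F K k)

/-- the centre acts trivially on the Lie algebra -/
theorem ns_RL_neg : S.RL (h (-1)) = 1 := by
  have h1 : pq (h (-1) : Matrix.SpecialLinearGroup (Fin 2) K) = 1 := by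
    refine (QuotientGroup.eq_one_iff _).2 (Subgroup.mem_center_iff.2 fun g => ?_)
    refine Subtype.ext ?_
    show g.1 * !![((-1 : Kˣ) : K), 0; 0, ((-1 : Kˣ) : K)⁻¹] = !![((-1 : Kˣ) : K), 0; 0, ((-1 : Kˣ) : K)⁻¹] * g.1
    ext i j
    fin_cases i <;> fin_cases j <;> simp [Matrix.mul_apply, Fin.sum_univ_two, inv_neg]
  show L k (emb S.f (S.ψ0 (h (-1)))) = 1
  rw [L_adM, Kf.adM_emb, adM_apply, S.lift, h1, map_one, OneMemClass.coe_one, Units.val_one,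
    Matrix.map_one _ (map_zero _) (map_one _), Matrix.toLin'_one]
  rfl

/-- **NONSPLIT** -/
theorem ns_main [DecidableEq k] (hc : (p = 13 ∧ a = 2) ∨ (p = 11 ∧ a = 2) ∨ (p = 7 ∧ a = 2) ∨ (p = 5 ∧ a = 3))
    {n : ℕ → ℕ} (hn : IsMult S.ι p a S.RL n) (h1 : ∀ j < a, 1 ≤ n (2 * p ^ j))
    (h2 : ∀ j < a, 2 ≤ n (p ^ j + (p - 2) * p ^ ((j + a - 1) % a)))
    (h3 : n 0 + a ≤ ∑ c ∈ range (p ^ a), n c * R2.H28.SL2.hb p a c) : False := by
  classical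
  have := Fact.mk S.prime
  have := S.charK
  have := S.chark
  have := S.closed
  exact Ns.main S.ι S.alg S.ψ S.cardK hc hn (hn.even S.ι p (by omega) S.ns_RL_neg) h1 h2 h3

/-- **NONSPLIT** -/
theorem ns_main' [DecidableEq k] (hc : (p = 13 ∧ a = 2) ∨ (p = 11 ∧ a = 2) ∨ (p = 7 ∧ a = 2) ∨ (p = 5 ∧ a = 3))
    {n : ℕ → ℕ} (hn : IsMult S.ι p a S.RL n) (h1 : ∀ j < a, 1 ≤ n (2 * p ^ j))
    (h2 : ∀ j < a, 2 ≤ n (p ^ j + (p - 2) * p ^ ((j + a - 1) % a)))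
    (h3 : n 0 + a ≤ ∑ j ∈ range a, n (p ^ j + (p - 2) * p ^ ((j + a - 1) % a))) : False :=
  S.ns_main hc hn h1 h2 (by rw [Ns.sum_hb hc]; exact h3)

end Sit

end Cfsg.Agent.E7P
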