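import Cfsg.Agent.E7P.Ns.Alc
import Cfsg.Agent.R2.H28.SL2.HOne

/-!
# S5932, NONSPLIT: the arithmetic (helper88)

`num_ok` : the tests `okG`, `okL`, `go` exclude the multiplicity functions with the forced factors and the pressure inequality.
-/

set_option autoImplicit false

namespace Cfsg.Agent.E7P.Ns

open Cfsg.Agent.R2.H28.SL2 (hb)
open Finset

/-- the digits of `m` are bounded by the digits of `b` -/
def inB (p b m : ℕ) : Bool :=
  Nat.ble (m % p) (b % p) && (Nat.ble (m / p % p) (b / p % p) && Nat.ble (m / p / p % p) (b / p / p % p))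

/-- sums over the weights -/
def sB (p b : ℕ) (f : ℕ → ℕ) : ℕ := ((List.range (b + 1)).map fun m => if inB p b m then f m else 0).sum

/-- the dimension -/
def dimN (p b : ℕ) : ℕ := sB p b fun _ => 1

/-- the multiplicities of the eigenvalues -/
def vec (N p b : ℕ) : ℕ := sB p b fun m => pl N ((m + N * b - b / 2) % N)

/-- the label of `J₁(j)` -/
def wl (p a j : ℕ) : ℕ := p ^ j + (p - 2) * p ^ ((j + a - 1) % a)

/-- the forced factors -/
def fo (p a b : ℕ) : ℕ := if ∃ j < a, b = 2 * p ^ j then 1 else if ∃ j < a, b = wl p a j then 2 else 0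

/-- the additional data -/
def ud (p a : ℕ) (sm : ℕ → ℕ) (b : ℕ) : ℕ := hb p a b + 512 * sm b

/-- sums over the forced factors -/
def sF (p a : ℕ) (g : ℕ → ℕ) : ℕ := ((List.range (p ^ a)).map fun b => if fo p a b = 0 then 0 else fo p a b * g b).sum

theorem sF_eq (p a : ℕ) (g : ℕ → ℕ) : sF p a g = ∑ b ∈ range (p ^ a), fo p a b * g b := by
  rw [sF, R2.T1.list_sum_range]
  refine sum_congr rfl fun b _ => ?_
  split_ifs with h
  · rw [h, zero_mul]
  · rfl

/-- membership -/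
noncomputable def mem (x : ℕ) (l : List ℕ) : Bool := List.rec false (fun y _ r => Bool.rec r true (Nat.beq x y)) l

theorem mem_ok {x : ℕ} {l : List ℕ} : mem x l = true ↔ x ∈ l := by
  induction l with
  | nil => exact ⟨fun h => Bool.noConfusion h, fun h => absurd h List.not_mem_nil⟩
  | cons y l ih =>
    have e : mem x (y :: l) = Bool.rec (mem x l) true (Nat.beq x y) := rfl
    rw [e, List.mem_cons, ← ih, ← Nat.beq_eq]
    cases Nat.beq x y <;> simp

/-- the final test -/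
noncomputable def fin (M a U0 : ℕ) (cs : List ℕ) (T U : ℕ) : Bool :=
  Bool.rec true (Bool.rec true false (mem (Nat.div (Nat.add U (Nat.mul (Nat.sub T M) U0)) 512) cs))
    (Nat.ble (Nat.add (Nat.sub T M) a) (Nat.mod (Nat.add U (Nat.mul (Nat.sub T M) U0)) 512))

/-- the test of a class -/
noncomputable def go (M C a U0 UF : ℕ) (cs : List ℕ) (gs : GrL) (X : ℕ) : Bool :=
  frc (Nat.add C X) fun T => Bool.rec true (dfs M (fin M a U0 cs) gs T UF) (Nat.beq (Nat.land T M) M)

/-- the test of the labels -/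
noncomputable def okL (p a N m : ℕ) (sm : ℕ → ℕ) (gs : GrL) (M C U0 UF : ℕ) : Bool :=
  okG m gs && (Nat.beq M (msk m) && (Nat.beq (C + sF p a (vec N p)) (M + 7) && (Nat.beq UF (sF p a (ud p a sm)) &&
    (Nat.beq U0 (ud p a sm 0) && (Nat.beq (fo p a 0) 0 && (Nat.beq (vec N p 0) 1 && (Nat.beq (dimN p 0) 1 &&
    frc (sF p a (dimN p)) fun fd => (List.range (p ^ a)).all fun b => Nat.beq (b % 2) 1 || frc (dimN p b) fun d =>
      Nat.ble (hb p a b) d && (Nat.beq b 0 || Nat.blt 133 (d + fd) || frc (vec N p b) fun v => frc (ud p a sm b) fun u =>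
        gs.tl.any (fun x => Nat.beq x.1 v && Nat.beq x.2 u) && (Nat.ble (dm m v) d && Nat.blt v (512 ^ m))))))))))

theorem msum (s : Finset ℕ) (n : ℕ → ℕ) (x : ℕ → ℕ × ℕ) (g : ℕ × ℕ → ℕ) :
    ((∑ b ∈ s, Multiset.replicate (n b) (x b)).map g).sum = ∑ b ∈ s, n b * g (x b) := by
  induction s using Finset.induction_on with
  | empty => rfl
  | insert b s hb ih =>
    rw [sum_insert hb, sum_insert hb, Multiset.map_add, Multiset.sum_add, ih, Multiset.map_replicate,
      Multiset.sum_replicate, smul_eq_mul]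

/-- **the arithmetic** -/
theorem num_ok {p a N m M C U0 UF : ℕ} {sm : ℕ → ℕ} {cs : List ℕ} {gs : GrL} (hp0 : 0 < p)
    (hL : okL p a N (m + 1) sm gs M C U0 UF = true) {n : ℕ → ℕ} (hdim : ∑ b ∈ range (p ^ a), n b * dimN p b = 133)
    (hev : ∀ b, n b ≠ 0 → Even b) (hf : ∀ b, fo p a b ≤ n b) (hp : n 0 + a ≤ ∑ b ∈ range (p ^ a), n b * hb p a b)
    (hs : ∑ b ∈ range (p ^ a), n b * sm b ∈ cs) {Y : ℕ} (hY : ∑ b ∈ range (p ^ a), n b * vec N p b = 7 + Y)
    (hgo : go M C a U0 UF cs gs Y = true) : False := by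
  simp only [okL, frc_eq, Bool.and_eq_true, Bool.or_eq_true, List.all_eq_true, List.any_eq_true, List.mem_range,
    Nat.beq_eq, Nat.ble_eq, Nat.blt_eq, sF_eq] at hL
  obtain ⟨hG, rfl, hC, rfl, rfl, f0, v0, d0, hl⟩ := hL
  have hl' := fun b (hb : b ∈ range (p ^ a)) (h : n b ≠ 0) => (hl b (mem_range.1 hb)).resolve_left
    (by have := Nat.even_iff.1 (hev b h); omega)
  have key : ∀ g : ℕ → ℕ, ∑ b ∈ range (p ^ a), n b * g b = n 0 * g 0 + ∑ b ∈ range (p ^ a), fo p a b * g b +
      ∑ b ∈ (range (p ^ a)).erase 0, (n b - fo p a b) * g b := by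
    intro g
    have h1 := add_sum_erase (range (p ^ a)) (fun b => (n b - fo p a b) * g b) (mem_range.2 (Nat.pow_pos hp0))
    simp only [f0, Nat.sub_zero] at h1
    rw [add_right_comm, h1, ← sum_add_distrib]
    exact sum_congr rfl fun b _ => by rw [← add_mul, Nat.sub_add_cancel (hf b)]
  obtain ⟨S, hS⟩ : ∃ S, S = ∑ b ∈ (range (p ^ a)).erase 0,
    Multiset.replicate (n b - fo p a b) (vec N p b, ud p a sm b) := ⟨_, rfl⟩
  have h1 := key (dimN p)
  rw [hdim, d0] at h1
  have h2 : ∀ b ∈ (range (p ^ a)).erase 0, n b - fo p a b ≠ 0 → (vec N p b, ud p a sm b) ∈ gs.tl ∧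
      dm (m + 1) (vec N p b) ≤ dimN p b ∧ vec N p b < 512 ^ (m + 1) := by
    intro b hb h
    have h3 := single_le_sum (f := fun b => (n b - fo p a b) * dimN p b) (fun _ _ => Nat.zero_le _) hb
    have h4 : 1 * dimN p b ≤ (n b - fo p a b) * dimN p b := Nat.mul_le_mul_right _ (by omega)
    obtain ⟨⟨x, hx, h5, h6⟩, h7⟩ := (hl' b (mem_of_mem_erase hb) (by omega)).2.resolve_left (by
      have := ne_of_mem_erase hb
      omega)
    exact ⟨by rw [← h5, ← h6]; exact hx, h7⟩
  have h3 : ∀ x ∈ S, x ∈ gs.tl ∧ x.1 < 512 ^ (m + 1) := by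
    intro x hx
    rw [hS, Multiset.mem_sum] at hx
    obtain ⟨b, hb, hx⟩ := hx
    obtain ⟨h4, rfl⟩ := Multiset.mem_replicate.1 hx
    exact ⟨(h2 b hb h4).1, (h2 b hb h4).2.2⟩
  have h4 : sD (m + 1) S ≤ ∑ b ∈ (range (p ^ a)).erase 0, (n b - fo p a b) * dimN p b := by
    rw [sD, hS, msum]
    refine sum_le_sum fun b hb => ?_
    by_cases h : n b - fo p a b = 0
    · rw [h, zero_mul, zero_mul]
    · exact Nat.mul_le_mul_left _ (h2 b hb h).2.1
  have h5 : Nat.add C Y = msk (m + 1) + n 0 + sV S := by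
    have h6 := key (vec N p)
    rw [hY, v0] at h6
    rw [sV, hS, msum, Nat.add_eq]
    simp only
    omega
  have h6 : n 0 + sD (m + 1) S < 256 := by omega
  rw [go, frc_eq, h5, test_ok (fun x hx => (h3 x hx).2) h6] at hgo
  have h7 := dfs_ok gs hG S _ (fun x hx => (h3 x hx).1) h6 hgo
  have h8 : ∑ b ∈ range (p ^ a), n b * hb p a b ≤ 133 := by
    rw [← hdim]
    refine sum_le_sum fun b hb => ?_
    by_cases h : n b = 0
    · rw [h, zero_mul, zero_mul]
    · exact Nat.mul_le_mul_left _ (hl' b hb h).1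
  have h9 : Nat.add (∑ b ∈ range (p ^ a), fo p a b * ud p a sm b + sU S)
      (Nat.mul (Nat.sub (msk (m + 1) + n 0) (msk (m + 1))) (ud p a sm 0)) =
      ∑ b ∈ range (p ^ a), n b * hb p a b + 512 * ∑ b ∈ range (p ^ a), n b * sm b := by
    have h10 := key (ud p a sm)
    rw [sU, hS, msum, Nat.add_eq, Nat.mul_eq, Nat.sub_eq, Nat.add_sub_cancel_left, mul_sum, ← sum_add_distrib,
      sum_congr rfl fun b _ => (show n b * hb p a b + 512 * (n b * sm b) = n b * ud p a sm b by rw [ud]; ring), h10]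
    simp only
    omega
  rw [fin, h9, Nat.ble_eq_true_of_le (by
    show _ - _ + a ≤ _ % 512
    omega), mem_ok.2 (by
    show _ / 512 ∈ cs
    rw [show (∑ b ∈ range (p ^ a), n b * hb p a b + 512 * ∑ b ∈ range (p ^ a), n b * sm b) / 512 =
      ∑ b ∈ range (p ^ a), n b * sm b by omega]
    exact hs)] at h7
  exact Bool.noConfusion h7

end Cfsg.Agent.E7P.Ns
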