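import Cfsg.Agent.E7P.Ns.Num
import Cfsg.Agent.R2.H28.SL2.Mult
import Cfsg.Agent.R2.H28.SL2.Dig
import Cfsg.Agent.R2.T1.Inf.PatF

/-!
# S5932, NONSPLIT: the classes of the semisimple elements of `SL₂(K)` (helper88)

`cls` : the multiplicities of the eigenvalues of an element of order `2 N` on the adjoint module belong to a point of the alcove.
-/

set_option autoImplicit false
set_option maxRecDepth 100000

namespace Cfsg.Agent.E7P.Ns

open Cfsg Cfsg.Lie Module Finset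
open Cfsg.Agent.ChevalleyStructure.CoxeterGeom Cfsg.Agent.Tits.Roots
open Cfsg.Agent.ChevalleyStructure Cfsg.Agent.ChevalleyStructure.Elts
open Cfsg.Agent.ChevalleyStructure.StBasic Cfsg.Agent.H129.StCover
open Cfsg.Agent.H944.RootVals Cfsg.Agent.H944.Kac Cfsg.Agent.H944.Tab Cfsg.Agent.H944.E7Two
open Cfsg.Agent.R2.T1 Cfsg.Agent.R2.T1.Five
open Cfsg.Agent.H952.F4 (ev)
open Cfsg.Agent.R2.H28.SL2 (IsMult mf choose_ne_iff dg_zero_of_le pow_eq_one_of_isSS)
open Cfsg.Agent.H943.SL2Mod (Bf)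
open Cfsg.Agent.H943.RepAdd (eig)
open Cfsg.Agent.H179.SLC (IsSS exists_isSS isSS_h)
open Cfsg.Agent.BpExc.TorAll (HAlg)

universe u v

/-- representatives in the alcove, for the order in the adjoint group -/
theorem alc_ad {K : Type u} [Field K] {N : ℕ} (hN : 0 < N) {z : Kˣ} (hz : IsPrimitiveRoot z N) {x g : Gh K}
    {c : Fin chevE7.rank → Kˣ} (h1 : Phi K c = g * x * g⁻¹) (h2 : ∀ j : Fin 7, rtv (chevE7.simple j) c ^ N = 1) :
    ∃ y : List ℕ, y.length = 7 ∧ dotN th7 y ≤ N ∧ ∀ s < N, ev (L K x) ((z : K) ^ s) = cL N y s := by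
  have : NeZero N := ⟨hN.ne'⟩
  have hzN := hz.pow_eq_one
  let P : (Fin 7 → ZMod N) → Prop := fun v => ∃ (g : Gh K) (c : Fin chevE7.rank → Kˣ), Phi K c = g * x * g⁻¹ ∧
    ∀ i : Fin 7, rtv (chevE7.simple i) c = z ^ (v i).val
  have hP : ∀ v j, P v → P (srefl chevE7 7 j v) := by
    rintro v j ⟨g, c, h1, h3⟩
    let j' : Fin chevE7.rank := j
    refine ⟨stn chevE7 (chevE7.simple j') (1 : K) * g, sAct chevE7 K j' c, ?_, fun i => ?_⟩
    · rw [← conj_n_phi e7T.inList isPhi, h1]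
      group
    · refine (rtv_sAct j' _ c).trans ?_
      rw [h3 i]
      have h4 : rtv (chevE7.simple j') c = z ^ (v j).val := h3 j
      rw [h4, ← val_sub_mul hzN]
      rfl
  have hex : ∀ j : Fin 7, ∃ a : ℕ, z ^ a = rtv (chevE7.simple j) c := by
    intro j
    have hz' : IsPrimitiveRoot (z : K) N := IsPrimitiveRoot.coe_units_iff.2 hz
    have h5 : ((rtv (chevE7.simple j) c : Kˣ) : K) ^ N = 1 := by rw [← Units.val_pow_eq_pow_val, h2, Units.val_one]
    obtain ⟨a, -, ha⟩ := hz'.eq_pow_of_pow_eq_one h5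
    exact ⟨a, Units.ext (by rw [Units.val_pow_eq_pow_val, ha])⟩
  choose a ha using hex
  have h0 : P fun i => ((a i : ℕ) : ZMod N) := ⟨g, c, h1, fun i => by rw [← ha i]; exact pow_val hzN _⟩
  obtain ⟨y, ⟨g', c', h3, h5⟩, hθ⟩ := exists_alcove e7T (N := N) hN _ _ 36 (by norm_num) theta7
    (by decide) _ pos7 P hP h0
  have hget : ∀ j : Fin 7, (List.ofFn y).getD j 0 = y j := fun j => by
    rw [List.getD_eq_getElem _ _ (by rw [List.length_ofFn]; exact j.2), List.getElem_ofFn]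
  refine ⟨List.ofFn y, List.length_ofFn, ?_, fun s hs => ?_⟩
  · rw [dotN_eq 7 th7 _ (by decide), Finset.sum_congr rfl fun i _ => by rw [hget i]]
    simp only [Fin.sum_univ_seven, Matrix.cons_val] at hθ ⊢
    simp only [th7, List.getD_cons_zero, List.getD_cons_succ, Fin.val_zero, Fin.val_one, Fin.val_two] at hθ ⊢
    norm_num at hθ ⊢
    omega
  · rw [ev_L_of_conj h3]
    refine ev_L_core List.length_ofFn (fun j hj => ?_) hz hs
    have h6 := h5 ⟨j, hj⟩
    rw [← pow_val hzN, ← hget] at h6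
    exact h6

variable {k : Type u} [Field k] [DecidableEq k] (p : ℕ) [Fact p.Prime] [CharP k p]

theorem sum_Bf {b : ℕ} (hb : b < p ^ 3) (f : ℕ → ℕ) : ∑ m ∈ Bf k b, f m = sB p b f := by
  show ∑ m ∈ (range (b + 1)).filter (fun m => (b.choose m : k) ≠ 0), f m = _
  rw [sum_filter, sB, list_sum_range]
  refine sum_congr rfl fun m hm => if_congr ?_ rfl rfl
  have e : ∀ x : ℕ, x / p / p = x / p ^ 2 := fun x => by rw [Nat.div_div_eq_div_mul, pow_two]
  simp only [choose_ne_iff p, inB, Bool.and_eq_true, Nat.ble_eq, e]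
  refine ⟨fun h => ⟨by simpa using h 0, by simpa using h 1, h 2⟩, fun h i => ?_⟩
  rcases i with _ | _ | _ | i
  · simpa using h.1
  · simpa using h.2.1
  · exact h.2.2
  · rw [dg_zero_of_le (Fact.out : p.Prime).pos ((Nat.le_of_lt_succ (mem_range.1 hm)).trans_lt hb) (by omega)]
    exact Nat.zero_le _

theorem card_Bf {b : ℕ} (hb : b < p ^ 3) : (Bf k b).card = dimN p b := by
  rw [card_eq_sum_ones, sum_Bf p hb, dimN]

omit [DecidableEq k] in
theorem wt_even {ζ : k} {N b m : ℕ} (hN : 0 < N) (hζ : ζ ^ (2 * N) = 1) (hb : Even b) (hm : m ≤ b) :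
    ζ ^ m * ζ⁻¹ ^ (b - m) = (ζ ^ 2) ^ (m + N * b - b / 2) := by
  have h0 : ζ ≠ 0 := by
    rintro rfl
    rw [zero_pow (by omega)] at hζ
    exact zero_ne_one hζ
  have h1 := Nat.even_iff.1 hb
  have h2 : 1 * b ≤ N * b := Nat.mul_le_mul_right _ hN
  rw [inv_pow, mul_inv_eq_iff_eq_mul₀ (pow_ne_zero _ h0), ← pow_mul, ← pow_add,
    show 2 * (m + N * b - b / 2) + (b - m) = m + 2 * (N * b) by omega, pow_add, ← mul_assoc, pow_mul, hζ, one_pow, mul_one]

theorem sum_mf {ζ : k} {N b : ℕ} (hN : 0 < N) (hζ : IsPrimitiveRoot (ζ ^ 2) N) (hb : Even b) (hb' : b < p ^ 3) :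
    ∑ s ∈ range N, mf b ζ ((ζ ^ 2) ^ s) * pl N s = vec N p b := by
  have e : ∀ s, mf b ζ ((ζ ^ 2) ^ s) * pl N s =
      ∑ m ∈ Bf k b, (if ζ ^ m * ζ⁻¹ ^ (b - m) = (ζ ^ 2) ^ s then 1 else 0) * pl N s := fun s => by
    rw [← sum_mul, ← card_filter]
    rfl
  rw [sum_congr rfl fun s _ => e s, sum_comm, vec, ← sum_Bf (k := k) p hb']
  refine sum_congr rfl fun m hm => ?_
  rw [wt_even hN (by rw [pow_mul, hζ.pow_eq_one]) hb (Nat.le_of_lt_succ (mem_range.1 (mem_filter.1 hm).1)),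
    pow_mod_eq hζ, sum_eq_single_of_mem _ (mem_range.2 (Nat.mod_lt _ hN)) fun s hs h => by
      rw [if_neg fun h1 => h (hζ.pow_inj (Nat.mod_lt _ hN) (mem_range.1 hs) h1).symm, zero_mul], if_pos rfl, one_mul]

/-- **the classes** -/
theorem cls {K : Type v} [Field K] [Fintype K] [CharP K p] [IsAlgClosed k] (ι : K →+* k) (hk : HAlg p k)
    (ψ : Matrix.SpecialLinearGroup (Fin 2) K →* Gh k) {a : ℕ} (hF : Fintype.card K = p ^ a) (ha : a ≤ 3) {n : ℕ → ℕ}
    (hn : IsMult ι p a (MonoidHom.comp (L k) ψ) n) (hev : ∀ b, n b ≠ 0 → Even b) {N : ℕ} (hN : 1 < N)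
    (hc : (2 * N).Coprime p) (hd : 2 * N ∣ p ^ a - 1 ∨ 2 * N ∣ p ^ a + 1) :
    Cls N (∑ b ∈ range (p ^ a), n b * vec N p b) := by
  classical
  have hp : p.Prime := Fact.out
  have h0 : ((2 * N : ℕ) : k) ≠ 0 := fun h => (hp.coprime_iff_not_dvd.1 hc.symm) ((CharP.cast_eq_zero_iff k p _).1 h)
  have : NeZero ((2 * N : ℕ) : k) := ⟨h0⟩
  obtain ⟨ζ, hζ⟩ : ∃ ζ : k, IsPrimitiveRoot ζ (2 * N) := HasEnoughRootsOfUnity.exists_primitiveRoot k (2 * N)
  have hζ0 : ζ ≠ 0 := hζ.ne_zero (by omega)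
  have hζ2 : IsPrimitiveRoot (ζ ^ 2) N := hζ.pow (by omega) rfl
  obtain ⟨g, hg⟩ : ∃ g, IsSS ι g ζ := by
    rcases hd with hd | hd
    · obtain ⟨t, ht⟩ := exists_of_pow_eq ι (t := ζ) (by
        rw [Nat.card_eq_fintype_card, hF, ← Nat.sub_add_cancel (Nat.pow_pos hp.pos : 1 ≤ p ^ a), pow_succ,
          (hζ.pow_eq_one_iff_dvd _).2 hd, one_mul])
      have ht0 : t ≠ 0 := by
        rintro rfl
        exact hζ0 (by rw [← ht, map_zero])
      exact ⟨_, ht ▸ isSS_h ι (Units.mk0 t ht0)⟩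
    · refine exists_isSS ι ι.injective p (by rw [hF]; exact (hζ.pow_eq_one_iff_dvd _).2 hd) fun h => ?_
      refine hζ.pow_ne_one_of_pos_of_lt two_ne_zero (by omega : 2 < 2 * N) ?_
      rw [pow_two]
      nth_rewrite 1 [h]
      exact inv_mul_cancel₀ hζ0
  have he : ∀ ν : k, ν ^ (2 * N) = 1 → ev (L k (ψ g)) ν = ∑ b ∈ range (p ^ a), n b * mf b ζ ν := by
    intro ν hν
    rw [← hn.eigen g ζ (2 * N) hg hζ.pow_eq_one h0 ν hν]
    exact congrArg (fun W : Submodule k (chevE7.Idx → k) => finrank k W) Module.End.eigenspace_def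
  obtain ⟨g', c, h1, h2⟩ := frameK p hk (y := ψ g) (N := 2 * N) (by omega) hc
    (by rw [← map_pow, pow_eq_one_of_isSS ι hg hζ.pow_eq_one, map_one])
  obtain ⟨y, h3, h4, h5⟩ := alc_ad (z := Units.mk0 (ζ ^ 2) (pow_ne_zero _ hζ0)) (by omega : 0 < N)
    (IsPrimitiveRoot.coe_units_iff.1 hζ2) h1 fun j => by
      have h3 : rtv (chevE7.simple j) c ^ (2 * N) = 1 := by
        unfold rtv
        rw [← Finset.prod_pow]
        refine Finset.prod_eq_one fun i _ => ?_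
        rw [← zpow_natCast, ← zpow_mul, mul_comm, zpow_mul, zpow_natCast]
        have h4 : c i ^ (2 * N) = 1 := congrFun h2 i
        rw [h4, one_zpow]
      have h4 := he (rtv (chevE7.simple j) c : kˣ) (by rw [← Units.val_pow_eq_pow_val, h3, Units.val_one])
      have h5 : ∀ j : Fin 7, chevE7.simple j < chevE7.nroots := by decide +kernel
      have h6 : ∑ b ∈ range (p ^ a), n b * mf b ζ (rtv (chevE7.simple j) c : kˣ) ≠ 0 := by
        rw [← h4, ev_L_of_conj h1, ev_L_Phi]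
        refine Nat.ne_of_gt (Nat.add_pos_right _ (card_pos.2 ⟨⟨_, h5 j⟩, ?_⟩))
        simp only [mem_filter, mem_univ, and_self]
      obtain ⟨b, -, h7⟩ := exists_ne_zero_of_sum_ne_zero h6
      obtain ⟨m, hm⟩ := card_ne_zero.1 (right_ne_zero_of_mul h7)
      obtain ⟨h8, h9⟩ := mem_filter.1 hm
      rw [wt_even (by omega : 0 < N) hζ.pow_eq_one (hev b (left_ne_zero_of_mul h7))
        (Nat.le_of_lt_succ (mem_range.1 (mem_filter.1 h8).1))] at h9
      apply Units.ext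
      rw [Units.val_pow_eq_pow_val, ← h9, ← pow_mul, mul_comm, pow_mul, hζ2.pow_eq_one, one_pow, Units.val_one]
  refine ⟨y, h3, h4, ?_⟩
  have h6 : ∀ s ∈ range N, cL N y s * pl N s = ∑ b ∈ range (p ^ a), n b * (mf b ζ ((ζ ^ 2) ^ s) * pl N s) := by
    intro s hs
    rw [← h5 s (mem_range.1 hs), Units.val_mk0, he _ (by
      rw [← pow_mul, ← pow_mul]
      exact (hζ.pow_eq_one_iff_dvd _).2 ((dvd_mul_left _ _).mul_left _)), sum_mul]
    exact sum_congr rfl fun b _ => mul_assoc _ _ _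
  rw [sum_congr rfl h6, sum_comm]
  refine sum_congr rfl fun b hb => ?_
  by_cases h : n b = 0
  · rw [h, zero_mul]
    exact (sum_eq_zero fun _ _ => zero_mul _).symm
  · rw [← mul_sum, sum_mf p (by omega) hζ2 (hev b h) ((mem_range.1 hb).trans_le (Nat.pow_le_pow_right hp.pos ha))]

end Cfsg.Agent.E7P.Ns
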